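import Mathlib.RingTheory.Noetherian.Basic
import Mathlib.RingTheory.Nilpotent.Basic
import Mathlib.RingTheory.Idempotents
import Mathlib.RingTheory.Localization.Away.Basic
import Mathlib.RingTheory.Spectrum.Prime.Topology

/-!
# Algebra for S3417

Let `B` be a Noetherian ring and `ϖ ∈ B` such that `D(ϖ)` is dense in `Spec B` and `B/ϖB` is reduced.
Then `ϖ` is a non-zero-divisor, and idempotents of `B[1/ϖ]` come from idempotents of `B`.
-/

set_option autoImplicit false

namespace Groth.Agent.Ega4fib.H138.DvrAlg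

variable {B : Type*} [CommRing B]

/-- If `g ϖ` nilpotent implies `g` nilpotent, `B/ϖB` is reduced and `B` is Noetherian, then `ϖ` is
a non-zero-divisor. -/
theorem mem_nonZeroDivisors_of_dense_of_reduced [IsNoetherianRing B] (ϖ : B)
    (hdense : ∀ g : B, IsNilpotent (g * ϖ) → IsNilpotent g)
    (hred : ∀ (d : B), ϖ ∣ d ^ 2 → ϖ ∣ d) : ϖ ∈ nonZeroDivisors B := by
  have hredn : ∀ (n : ℕ) (d : B), ϖ ∣ d ^ (2 ^ n) → ϖ ∣ d := by
    intro n
    induction n with
    | zero => intro d h; simpa using h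
    | succ n ih =>
      intro d h
      apply ih
      apply hred
      rwa [← pow_mul, ← pow_succ]
  have hnil : ∀ d : B, IsNilpotent d → ϖ ∣ d := by
    rintro d ⟨n, hn⟩
    apply hredn n d
    have : d ^ (2 ^ n) = 0 := by
      have h2 : n ≤ 2 ^ n := Nat.lt_two_pow_self.le
      rw [← Nat.sub_add_cancel h2, pow_add, hn, mul_zero]
    rw [this]
    exact dvd_zero _
  -- the stabilizing chain of kernels
  obtain ⟨N, hN⟩ := monotone_stabilizes_iff_noetherian.mpr (inferInstance : IsNoetherian B B)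
    ⟨fun n => LinearMap.ker (LinearMap.mulLeft B (ϖ ^ n) : B →ₗ[B] B), by
      intro m n hmn x hx
      rw [LinearMap.mem_ker, LinearMap.mulLeft_apply] at hx ⊢
      rw [← Nat.sub_add_cancel hmn, pow_add, mul_assoc, hx, mul_zero]⟩
  -- each element killed by ϖ^(k+1) is divisible by ϖ
  have key : ∀ (k : ℕ) (t : B), ϖ ^ (k + 1) * t = 0 → ϖ ∣ t := by
    intro k
    induction k with
    | zero =>
      intro t ht
      apply hnil
      apply hdense
      rw [mul_comm]
      rw [zero_add, pow_one] at ht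
      rw [ht]
      exact IsNilpotent.zero
    | succ k ih =>
      intro t ht
      apply hnil
      apply hdense
      refine ⟨k + 2, ?_⟩
      rw [mul_comm t ϖ, mul_pow, show k + 2 = (k + 1) + 1 from rfl]
      rw [pow_succ t, mul_comm (t ^ (k + 1)) t, ← mul_assoc, ht, zero_mul]
  -- t = ϖ^n t_n
  have key2 : ∀ (n : ℕ) (t : B), ϖ * t = 0 → ∃ s, t = ϖ ^ n * s ∧ ϖ ^ (n + 1) * s = 0 := by
    intro n
    induction n with
    | zero => intro t ht; exact ⟨t, by simp, by simpa using ht⟩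
    | succ n ih =>
      intro t ht
      obtain ⟨s, hs, hs'⟩ := ih t ht
      obtain ⟨r, hr⟩ := key n s hs'
      refine ⟨r, ?_, ?_⟩
      · rw [hs, hr, pow_succ, mul_assoc]
      · rw [hr, ← mul_assoc, ← pow_succ] at hs'
        exact hs'
  rw [mem_nonZeroDivisors_iff_right]
  intro t ht
  obtain ⟨s, hs, hs'⟩ := key2 N t (by rw [mul_comm]; exact ht)
  have : s ∈ LinearMap.ker (LinearMap.mulLeft B (ϖ ^ N) : B →ₗ[B] B) := by
    have h1 := hN (N + 1) (Nat.le_succ N)
    change LinearMap.ker (LinearMap.mulLeft B (ϖ ^ N) : B →ₗ[B] B) =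
      LinearMap.ker (LinearMap.mulLeft B (ϖ ^ (N + 1)) : B →ₗ[B] B) at h1
    rw [h1, LinearMap.mem_ker, LinearMap.mulLeft_apply]
    exact hs'
  rw [LinearMap.mem_ker, LinearMap.mulLeft_apply] at this
  rw [hs, this]

/-- Idempotents of `B[1/ϖ]` come from `B` when `ϖ` is a non-zero-divisor and `B/ϖB` is reduced. -/
theorem exists_idempotent_of_away {C : Type*} [CommRing C] [Algebra B C] (ϖ : B)
    [IsLocalization.Away ϖ C] (hϖ : ϖ ∈ nonZeroDivisors B)
    (hred : ∀ (d : B), ϖ ∣ d ^ 2 → ϖ ∣ d) (e : C) (he : IsIdempotentElem e) :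
    ∃ d : B, IsIdempotentElem d ∧ algebraMap B C d = e := by
  classical
  have hinj : Function.Injective (algebraMap B C) := by
    apply IsLocalization.injective C (M := Submonoid.powers ϖ)
    exact Submonoid.powers_le.mpr hϖ
  have hex : ∃ n : ℕ, ∃ d : B, algebraMap B C (ϖ ^ n) * e = algebraMap B C d := by
    obtain ⟨⟨d, ⟨_, n, rfl⟩⟩, h⟩ := IsLocalization.surj (Submonoid.powers ϖ) e
    exact ⟨n, d, by rw [mul_comm]; exact h⟩
  let n := Nat.find hex
  obtain ⟨d, hd⟩ : ∃ d : B, algebraMap B C (ϖ ^ n) * e = algebraMap B C d := Nat.find_spec hex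
  have hd2 : d ^ 2 = ϖ ^ n * d := by
    apply hinj
    rw [map_pow, ← hd, map_mul, ← hd, mul_pow, sq e, he.eq]
    ring
  rcases Nat.eq_zero_or_pos n with h0 | hpos
  · rw [h0, pow_zero, map_one, one_mul] at hd
    rw [h0, pow_zero, one_mul, sq] at hd2
    exact ⟨d, hd2, hd.symm⟩
  · exfalso
    obtain ⟨m, hm⟩ : ∃ m, n = m + 1 := ⟨n - 1, by omega⟩
    have hdiv : ϖ ∣ d := by
      apply hred
      rw [hd2, hm, pow_succ', mul_assoc]
      exact Dvd.intro _ rfl
    obtain ⟨c, hc⟩ := hdiv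
    have : ∃ d : B, algebraMap B C (ϖ ^ m) * e = algebraMap B C d := by
      refine ⟨c, ?_⟩
      have hu : IsUnit (algebraMap B C ϖ) := IsLocalization.Away.algebraMap_isUnit ϖ
      apply hu.mul_left_cancel
      rw [← mul_assoc, ← map_mul, ← pow_succ', ← hm, hd, hc, map_mul]
    have := Nat.find_min hex (m := m) (by change m < n; omega)
    exact this ‹_›

open PrimeSpectrum in
/-- In `Spec B`, with `ϖ` a non-zero-divisor and `B/ϖB` reduced, two disjoint open subsets covering
`D(ϖ)` have disjoint closures. -/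
theorem disjoint_closure {B : Type*} [CommRing B] (ϖ : B) (hϖ : ϖ ∈ nonZeroDivisors B)
    (hred : ∀ (d : B), ϖ ∣ d ^ 2 → ϖ ∣ d) (U V : Set (PrimeSpectrum B)) (hU : IsOpen U)
    (hV : IsOpen V) (hUV : Disjoint U V) (hcov : U ∪ V = (basicOpen ϖ : Set (PrimeSpectrum B))) :
    Disjoint (closure U) (closure V) := by
  let C := Localization.Away ϖ
  let j : PrimeSpectrum C → PrimeSpectrum B := comap (algebraMap B C)
  have hj : Set.range j = (basicOpen ϖ : Set (PrimeSpectrum B)) := localization_away_comap_range C ϖ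
  have hjc : Continuous j := PrimeSpectrum.continuous_comap _
  have hcompl : (j ⁻¹' U)ᶜ = j ⁻¹' V := by
    apply Set.Subset.antisymm
    · intro x hx
      have : j x ∈ U ∪ V := by rw [hcov, ← hj]; exact ⟨x, rfl⟩
      rcases this with h | h
      · exact absurd h hx
      · exact h
    · intro x hx hx'
      exact Set.disjoint_left.mp hUV hx' hx
  have hclopen : IsClopen (j ⁻¹' U) :=
    ⟨by rw [← isOpen_compl_iff, hcompl]; exact hV.preimage hjc, hU.preimage hjc⟩
  obtain ⟨e, he, hUe⟩ := PrimeSpectrum.isClopen_iff.mp hclopen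
  obtain ⟨d, hd, hde⟩ := exists_idempotent_of_away (C := C) ϖ hϖ hred e he
  have hdclopen : IsClopen (basicOpen d : Set (PrimeSpectrum B)) :=
    PrimeSpectrum.isClopen_iff.mpr ⟨d, hd, rfl⟩
  have h1 : U ⊆ (basicOpen d : Set (PrimeSpectrum B)) := by
    intro x hx
    have hx' : x ∈ (basicOpen ϖ : Set (PrimeSpectrum B)) := hcov ▸ Or.inl hx
    rw [← hj] at hx'
    obtain ⟨y, rfl⟩ := hx'
    have hy : y ∈ j ⁻¹' U := hx
    rw [hUe, ← hde] at hy
    exact hy
  have h2 : V ⊆ (basicOpen d : Set (PrimeSpectrum B))ᶜ := by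
    intro x hx hxd
    have hx' : x ∈ (basicOpen ϖ : Set (PrimeSpectrum B)) := hcov ▸ Or.inr hx
    rw [← hj] at hx'
    obtain ⟨y, rfl⟩ := hx'
    have hy : y ∈ j ⁻¹' U := by
      rw [hUe, ← hde]
      exact hxd
    exact Set.disjoint_left.mp hUV hy hx
  have h3 := closure_minimal h1 hdclopen.isClosed
  have h4 := closure_minimal h2 hdclopen.compl.isClosed
  exact Set.disjoint_of_subset h3 h4 disjoint_compl_right

/-- density in terms of nilpotents -/
theorem isNilpotent_of_dense {B : Type*} [CommRing B] (ϖ : B)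
    (h : Dense (PrimeSpectrum.basicOpen ϖ : Set (PrimeSpectrum B))) (g : B)
    (hg : IsNilpotent (g * ϖ)) : IsNilpotent g := by
  rw [← PrimeSpectrum.basicOpen_eq_bot_iff] at hg ⊢
  rw [PrimeSpectrum.basicOpen_mul] at hg
  by_contra hne
  have hne' : (PrimeSpectrum.basicOpen g : Set (PrimeSpectrum B)).Nonempty := by
    rw [Set.nonempty_iff_ne_empty]
    intro h0
    exact hne (TopologicalSpace.Opens.ext h0)
  obtain ⟨x, hx, hx'⟩ := h.inter_open_nonempty _ (PrimeSpectrum.basicOpen g).isOpen hne'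
  have : x ∈ PrimeSpectrum.basicOpen g ⊓ PrimeSpectrum.basicOpen ϖ := ⟨hx, hx'⟩
  rw [hg] at this
  exact this

end Groth.Agent.Ega4fib.H138.DvrAlg
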