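import Mathlib.AlgebraicGeometry.Fiber
import Mathlib.AlgebraicGeometry.Properties
import Mathlib.AlgebraicGeometry.Morphisms.FiniteType
import Mathlib.RingTheory.DiscreteValuationRing.Basic
import Mathlib.RingTheory.FiniteType
import Groth.Agent.Ega4fib.H138.DvrAlg

/-!
# Scheme part for S3417
-/

set_option autoImplicit false
open CategoryTheory AlgebraicGeometry TensorProduct
universe u

namespace Groth.Agent.Ega4fib.H138.DvrFib

/-- If the fibre ring at a maximal ideal `p = (π)` is reduced then `B/πB` is reduced. -/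
theorem dvd_of_isReduced_fiber {A B : Type u} [CommRing A] [CommRing B] [Algebra A B]
    (p : Ideal A) [p.IsMaximal] (π : A) (hp : p = Ideal.span {π})
    (hred : _root_.IsReduced (p.Fiber B)) (d : B) (hd : algebraMap A B π ∣ d ^ 2) :
    algebraMap A B π ∣ d := by
  let Q := B ⧸ Ideal.span {algebraMap A B π}
  have hπQ : algebraMap A Q π = 0 := by
    rw [IsScalarTower.algebraMap_apply A B Q]
    change Ideal.Quotient.mk _ (algebraMap A B π) = 0
    rw [Ideal.Quotient.eq_zero_iff_mem]
    exact Ideal.mem_span_singleton_self _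
  have hf₁ : p ≤ RingHom.ker (Algebra.ofId A Q) := by
    rw [hp, Ideal.span_singleton_le_iff_mem]
    exact hπQ
  have hf₂ : p.primeCompl ≤ (IsUnit.submonoid Q).comap (Algebra.ofId A Q) := by
    intro x hx
    obtain ⟨y, hy⟩ := Ideal.Quotient.exists_inv (I := p) (a := Ideal.Quotient.mk p x) (by
      rw [Ne, Ideal.Quotient.eq_zero_iff_mem]; exact hx)
    obtain ⟨y, rfl⟩ := Ideal.Quotient.mk_surjective y
    rw [← map_mul, ← map_one (Ideal.Quotient.mk p), Ideal.Quotient.eq] at hy
    have := hf₁ hy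
    rw [RingHom.mem_ker, map_sub, map_mul, map_one, sub_eq_zero] at this
    exact IsUnit.of_mul_eq_one _ this
  let g : p.Fiber B →ₐ[A] Q := Algebra.TensorProduct.lift
    (Ideal.ResidueField.liftₐ p (Algebra.ofId A Q) hf₁ hf₂) (IsScalarTower.toAlgHom A B Q)
    (fun _ _ => Commute.all _ _)
  have hg : ∀ x : B, g (1 ⊗ₜ x) = Ideal.Quotient.mk _ x := by
    intro x
    rw [Algebra.TensorProduct.lift_tmul, map_one, one_mul]
    rfl
  have hπF : (1 : p.ResidueField) ⊗ₜ[A] (algebraMap A B π) = 0 := by
    rw [Algebra.algebraMap_eq_smul_one, ← smul_tmul, ← Algebra.algebraMap_eq_smul_one,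
      (Ideal.algebraMap_residueField_eq_zero (I := p) (x := π)).mpr (by
        rw [hp]; exact Ideal.mem_span_singleton_self π), zero_tmul]
  have h1 : IsNilpotent ((1 : p.ResidueField) ⊗ₜ[A] d) := by
    refine ⟨2, ?_⟩
    rw [Algebra.TensorProduct.tmul_pow, one_pow]
    obtain ⟨c, hc⟩ := hd
    rw [hc]
    have : (1 : p.ResidueField) ⊗ₜ[A] (algebraMap A B π * c) =
        ((1 : p.ResidueField) ⊗ₜ[A] (algebraMap A B π)) * (1 ⊗ₜ[A] c) := by
      rw [Algebra.TensorProduct.tmul_mul_tmul, one_mul]
    rw [this, hπF, zero_mul]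
  have h2 := hred.eq_zero _ h1
  have h3 := hg d
  rw [h2, map_zero] at h3
  rw [← Ideal.mem_span_singleton, ← Ideal.Quotient.eq_zero_iff_mem]
  exact h3.symm

/-- The affine case. -/
theorem affine_disjoint_closure (A : Type u) [CommRing A] [IsDomain A]
    [IsDiscreteValuationRing A] (B : Type u) [CommRing B] [Algebra A B] [Algebra.FiniteType A B]
    (hopen : IsOpenMap (PrimeSpectrum.comap (algebraMap A B)))
    (a b : PrimeSpectrum A) (ha : a.asIdeal.IsMaximal) (hb : b.asIdeal = ⊥)
    (hred : _root_.IsReduced (a.asIdeal.Fiber B))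
    (U V : Set (PrimeSpectrum B)) (hU : IsOpen U) (hV : IsOpen V)
    (hUV : Disjoint U V) (hcov : U ∪ V = PrimeSpectrum.comap (algebraMap A B) ⁻¹' {b}) :
    Disjoint (closure U) (closure V) := by
  obtain ⟨π, hπ⟩ := IsDiscreteValuationRing.exists_irreducible A
  have hpa : a.asIdeal = Ideal.span {π} := by
    rw [← hπ.maximalIdeal_eq]
    exact IsLocalRing.eq_maximalIdeal ha
  have hbset : (PrimeSpectrum.basicOpen π : Set (PrimeSpectrum A)) = {b} := by
    ext z
    rw [Set.mem_singleton_iff]
    change π ∉ z.asIdeal ↔ z = b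
    constructor
    · intro h
      rw [PrimeSpectrum.ext_iff, hb]
      by_contra hne
      have hm := (IsPrime.to_maximal_ideal (hpi := z.isPrime) hne)
      have := IsLocalRing.eq_maximalIdeal hm
      rw [this, hπ.maximalIdeal_eq] at h
      exact h (Ideal.mem_span_singleton_self π)
    · rintro rfl
      rw [hb]
      exact hπ.ne_zero
  have hNoeth : IsNoetherianRing B := Algebra.FiniteType.isNoetherianRing A B
  have hredB : ∀ d : B, algebraMap A B π ∣ d ^ 2 → algebraMap A B π ∣ d := fun d hd =>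
    dvd_of_isReduced_fiber a.asIdeal π hpa hred d hd
  have hpre : PrimeSpectrum.comap (algebraMap A B) ⁻¹' {b} =
      (PrimeSpectrum.basicOpen (algebraMap A B π) : Set (PrimeSpectrum B)) := by
    rw [← hbset]
    rfl
  have hdense : Dense (PrimeSpectrum.basicOpen (algebraMap A B π) : Set (PrimeSpectrum B)) := by
    rw [← hpre, dense_iff_inter_open]
    intro W hW hWne
    have h1 := hopen W hW
    obtain ⟨w, hw⟩ := hWne
    have hbw : b ⤳ PrimeSpectrum.comap (algebraMap A B) w := by
      rw [← PrimeSpectrum.le_iff_specializes, ← PrimeSpectrum.asIdeal_le_asIdeal, hb]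
      exact bot_le
    obtain ⟨y, hy, hyb⟩ := hbw.mem_open h1 ⟨w, hw, rfl⟩
    exact ⟨y, hy, hyb⟩
  have hnz : algebraMap A B π ∈ nonZeroDivisors B :=
    DvrAlg.mem_nonZeroDivisors_of_dense_of_reduced _ (DvrAlg.isNilpotent_of_dense _ hdense) hredB
  exact DvrAlg.disjoint_closure _ hnz hredB U V hU hV hUV (hcov.trans hpre)

/-- An isomorphism identifying reducedness of the scheme-theoretic fibre. -/
theorem isReduced_fiber_of_spec (A B : Type u) [CommRing A] [CommRing B] [Algebra A B]
    (a : PrimeSpectrum A)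
    (h : AlgebraicGeometry.IsReduced
      ((Spec.map (CommRingCat.ofHom (algebraMap A B))).fiber a)) :
    _root_.IsReduced (a.asIdeal.Fiber B) := by
  let e := Spec.fiberToSpecResidueFieldIso A B a
  let e' : (Spec.map (CommRingCat.ofHom (algebraMap A B))).fiber a ≅
      Spec (CommRingCat.of (a.asIdeal.Fiber B)) := Arrow.leftFunc.mapIso e
  have : AlgebraicGeometry.IsReduced (Spec (CommRingCat.of (a.asIdeal.Fiber B))) :=
    isReduced_of_isOpenImmersion e'.inv
  exact (affine_isReduced_iff _).mp this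

/-- Fibres of the restriction to an open are open in the fibre. -/
theorem isReduced_fiber_comp {X Y W : Scheme.{u}} (j : W ⟶ X) [IsOpenImmersion j] (f : X ⟶ Y)
    (y : Y) [AlgebraicGeometry.IsReduced (f.fiber y)] :
    AlgebraicGeometry.IsReduced ((j ≫ f).fiber y) := by
  let g : (j ≫ f).fiber y ⟶ f.fiber y :=
    Limits.pullback.map _ _ _ _ j (𝟙 _) (𝟙 _) (by simp) (by simp)
  have : IsOpenImmersion g :=
    Scheme.pullback_map_isOpenImmersion _ _ _ _ j (𝟙 _) (𝟙 _) (by simp) (by simp)
  exact isReduced_of_isOpenImmersion g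

end Groth.Agent.Ega4fib.H138.DvrFib
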