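import Groth.Agent.Ega4fib.H138.DvrFib

/-!
# Global part for S3417
-/

set_option autoImplicit false
open CategoryTheory AlgebraicGeometry TensorProduct
universe u

namespace Groth.Agent.Ega4fib.H138.DvrGlob

/-- Topological transport of the affine statement. -/
theorem transport {R X Y : Type*} [TopologicalSpace R] [TopologicalSpace X]
    (j : R → X) (f : X → Y) (g : R → Y) (b : Y) (hj : IsOpenMap j) (hjc : Continuous j)
    (hfg : ∀ z, f (j z) = g z)
    (key : ∀ (U V : Set R), IsOpen U → IsOpen V → Disjoint U V → U ∪ V = g ⁻¹' {b} →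
      Disjoint (closure U) (closure V))
    (U V : Set X) (hU : IsOpen U) (hV : IsOpen V) (hUV : Disjoint U V)
    (hcov : U ∪ V = f ⁻¹' {b}) (y : R) (hxU : j y ∈ closure U) (hxV : j y ∈ closure V) :
    False := by
  have hdis := key (j ⁻¹' U) (j ⁻¹' V) (hU.preimage hjc) (hV.preimage hjc) (hUV.preimage _) (by
    rw [← Set.preimage_union, hcov]
    ext z
    simp only [Set.mem_preimage, Set.mem_singleton_iff]
    rw [hfg z])
  rw [← hj.preimage_closure_eq_closure_preimage hjc,
    ← hj.preimage_closure_eq_closure_preimage hjc] at hdis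
  exact (Set.disjoint_left.mp hdis : ∀ ⦃a : R⦄, _) (a := y) hxU hxV

theorem asIdeal_eq_bot {A : Type u} [CommRing A] [IsDomain A] (b : PrimeSpectrum A)
    (hb : ∀ z : PrimeSpectrum A, b ⤳ z) : b.asIdeal = ⊥ := by
  have h2 : b ≤ (⊥ : PrimeSpectrum A) := (PrimeSpectrum.le_iff_specializes _ _).mpr (hb ⊥)
  rw [eq_bot_iff]
  exact h2

theorem isOpen_singleton {A : Type u} [CommRing A] [IsDomain A] [IsDiscreteValuationRing A]
    (b : PrimeSpectrum A)
    (hb : ∀ z : PrimeSpectrum A, b ⤳ z) : IsOpen ({b} : Set (PrimeSpectrum A)) := by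
  obtain ⟨π, hπ⟩ := IsDiscreteValuationRing.exists_irreducible A
  have : ({b} : Set (PrimeSpectrum A)) = (PrimeSpectrum.basicOpen π : Set (PrimeSpectrum A)) := by
    have hb' : PrimeSpectrum.asIdeal (R := A) b = ⊥ := asIdeal_eq_bot b hb
    ext z
    rw [Set.mem_singleton_iff]
    change z = b ↔ π ∉ z.asIdeal
    constructor
    · rintro rfl
      rw [hb']
      exact hπ.ne_zero
    · intro h
      rw [PrimeSpectrum.ext_iff, hb']
      by_contra hne
      have hm := (IsPrime.to_maximal_ideal (hpi := z.isPrime) hne)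
      have := IsLocalRing.eq_maximalIdeal hm
      rw [this, hπ.maximalIdeal_eq] at h
      exact h (Ideal.mem_span_singleton_self π)
  rw [this]
  exact (PrimeSpectrum.basicOpen π).isOpen

/-- The local statement at each point of `X`. -/
theorem local_disjoint (A : Type u) [CommRing A] [IsDomain A]
    [IsDiscreteValuationRing A] {X : Scheme.{u}} (f : X ⟶ Spec (CommRingCat.of A))
    [LocallyOfFiniteType f]
    (hopen : IsOpenMap f.base)
    (a b : ↥(Spec (CommRingCat.of A))) (ha : IsClosed ({a} : Set ↥(Spec (CommRingCat.of A))))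
    (hb : ∀ z : ↥(Spec (CommRingCat.of A)), b ⤳ z)
    (hred : AlgebraicGeometry.IsReduced (f.fiber a)) (x : X)
    (U V : Set X) (hU : IsOpen U) (hV : IsOpen V) (hUV : Disjoint U V)
    (hcov : U ∪ V = f.base ⁻¹' {b}) (hxU : x ∈ closure U) (hxV : x ∈ closure V) : False := by
  obtain ⟨R, j, hj, y, hy⟩ : ∃ (R : CommRingCat.{u}) (j : Spec R ⟶ X) (_ : IsOpenImmersion j)
      (y : ↥(Spec R)), j.base y = x := by
    obtain ⟨y, hy⟩ := X.affineCover.covers x
    exact ⟨_, X.affineCover.f (X.affineCover.idx x), X.affineCover.map_prop _, y, hy⟩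
  obtain ⟨φ, hφ⟩ := Spec.map_surjective (j ≫ f)
  let : Algebra A R := φ.hom.toAlgebra
  have hφ' : Spec.map (CommRingCat.ofHom (algebraMap A R)) = j ≫ f := hφ
  have hft : LocallyOfFiniteType (Spec.map φ) := hφ ▸ inferInstance
  have : Algebra.FiniteType A R := by
    rw [HasRingHomProperty.Spec_iff (P := @LocallyOfFiniteType)] at hft
    exact hft
  let a' : PrimeSpectrum A := a
  let b' : PrimeSpectrum A := b
  have hred' : _root_.IsReduced (a'.asIdeal.Fiber R) := by
    apply DvrFib.isReduced_fiber_of_spec A R a'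
    rw [hφ']
    exact DvrFib.isReduced_fiber_comp j f a
  have hjf : ∀ z : ↥(Spec R), f.base (j.base z) =
      PrimeSpectrum.comap (algebraMap A R) z := by
    intro z
    have : (j ≫ f).base z = (Spec.map (CommRingCat.ofHom (algebraMap A R))).base z := by
      rw [hφ']
    exact this
  have hopen' : IsOpenMap (PrimeSpectrum.comap (algebraMap A R)) := by
    have h1 : IsOpenMap (f.base ∘ j.base) := hopen.comp j.isOpenEmbedding.isOpenMap
    have h2 : (f.base ∘ j.base : ↥(Spec R) → _) = PrimeSpectrum.comap (algebraMap A R) := by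
      funext z
      exact (hjf z)
    rw [h2] at h1
    exact h1
  have ha' : a'.asIdeal.IsMaximal := (PrimeSpectrum.isClosed_singleton_iff_isMaximal a').mp ha
  have hb' : b'.asIdeal = ⊥ := asIdeal_eq_bot b' hb
  subst hy
  exact transport (R := PrimeSpectrum R) (X := X) (Y := PrimeSpectrum A) j.base f.base
    (PrimeSpectrum.comap (algebraMap A R)) b' j.isOpenEmbedding.isOpenMap j.continuous hjf
    (DvrFib.affine_disjoint_closure A R hopen' a' b' ha' hb' hred') U V hU hV hUV hcov y hxU hxV

/-- The theorem. -/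
theorem main (A : Type u) [CommRing A] [IsDomain A]
    [IsDiscreteValuationRing A] {X : Scheme.{u}} (f : X ⟶ Spec (CommRingCat.of A))
    [LocallyOfFiniteType f]
    (hopen : IsOpenMap f.base) [PreconnectedSpace X]
    (a b : ↥(Spec (CommRingCat.of A))) (ha : IsClosed ({a} : Set ↥(Spec (CommRingCat.of A))))
    (hb : ∀ z : ↥(Spec (CommRingCat.of A)), b ⤳ z)
    (hred : AlgebraicGeometry.IsReduced (f.fiber a)) :
    PreconnectedSpace ↥(f.fiber b) := by
  have hbopen : IsOpen ({b} : Set ↥(Spec (CommRingCat.of A))) :=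
    isOpen_singleton (A := A) b hb
  have hFopen : IsOpen (f.base ⁻¹' {b}) := hbopen.preimage f.continuous
  have hdense : Dense (f.base ⁻¹' {b}) := by
    rw [dense_iff_inter_open]
    intro W hW ⟨w, hw⟩
    obtain ⟨y, hy, hyb⟩ := (hb (f.base w)).mem_open (hopen W hW) ⟨w, hw, rfl⟩
    exact ⟨y, hy, hyb⟩
  have hpre : _root_.IsPreconnected (f.base ⁻¹' {b}) := by
    rw [isPreconnected_iff_subset_of_disjoint]
    intro U V hU hV hcov hempty
    by_contra hcon
    push Not at hcon
    obtain ⟨hnU, hnV⟩ := hcon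
    have hneV : (f.base ⁻¹' {b} ∩ V).Nonempty := by
      obtain ⟨z, hz, hzU⟩ := Set.not_subset.mp hnU
      rcases hcov hz with h | h
      · exact absurd h hzU
      · exact ⟨z, hz, h⟩
    have hneU : (f.base ⁻¹' {b} ∩ U).Nonempty := by
      obtain ⟨z, hz, hzV⟩ := Set.not_subset.mp hnV
      rcases hcov hz with h | h
      · exact ⟨z, hz, h⟩
      · exact absurd h hzV
    have hcov' : (f.base ⁻¹' {b} ∩ U) ∪ (f.base ⁻¹' {b} ∩ V) = f.base ⁻¹' {b} := by
      rw [← Set.inter_union_distrib_left]
      exact Set.inter_eq_left.mpr hcov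
    have hdisj : Disjoint (f.base ⁻¹' {b} ∩ U) (f.base ⁻¹' {b} ∩ V) := by
      rw [Set.disjoint_iff_inter_eq_empty, ← hempty]
      ext z
      simp only [Set.mem_inter_iff]
      tauto
    have huniv : closure (f.base ⁻¹' {b} ∩ U) ∪ closure (f.base ⁻¹' {b} ∩ V) = Set.univ := by
      rw [← closure_union, hcov']
      exact hdense.closure_eq
    have hX : _root_.IsPreconnected (Set.univ : Set X) := isPreconnected_univ
    rw [isPreconnected_closed_iff] at hX
    obtain ⟨x, -, hx1, hx2⟩ := hX _ _ isClosed_closure isClosed_closure huniv.ge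
      (by
        obtain ⟨z, hz⟩ := hneU
        exact ⟨z, trivial, subset_closure hz⟩)
      (by
        obtain ⟨z, hz⟩ := hneV
        exact ⟨z, trivial, subset_closure hz⟩)
    exact local_disjoint A f hopen a b ha hb hred x _ _ (hFopen.inter hU) (hFopen.inter hV)
      hdisj hcov' hx1 hx2
  have h2 : PreconnectedSpace ↥(f.base ⁻¹' {b}) := isPreconnected_iff_preconnectedSpace.mp hpre
  exact DenseRange.preconnectedSpace (f.fiberHomeo b).symm.surjective.denseRange
    (f.fiberHomeo b).symm.continuous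

end Groth.Agent.Ega4fib.H138.DvrGlob
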